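import Cfsg.Agent.H293.IF.Extra
import Cfsg.Agent.BabyM.AbsFinal

/-!
# `B`: long orbits of `2^{1+22}.Co₂` on `2^{22}` (helper293, for row `B` of S5719)

* `Dat.index_ge` : abstract form;
* `index_ge` : for `q ∈ Q - Z` the stabilizer in `C` of the class `qZ` has index at least 1024 (`M : BData`, `A : BAll M K₀`).
-/

set_option autoImplicit false

namespace Cfsg.Agent.H293.IF

open Subgroup

section

variable {Γ : Type*} [Group Γ]

/-- the facts on `C = C(z)`, `Q = O₂(C)` and an element `τ` moving `z` into `Q` -/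
structure Dat (C Q : Subgroup Γ) (z τ : Γ) : Prop where
  zQ : z ∈ Q
  z1 : z ≠ 1
  zz : z * z = 1
  QC : Q ≤ C
  finC : Finite C
  card : Nat.card Q = 2 ^ 23
  zc : ∀ g ∈ C, g * z = z * g
  norm : ∀ g ∈ C, ∀ q ∈ Q, g * q * g⁻¹ ∈ Q
  comm : ∀ x ∈ Q, ∀ y ∈ Q, x * y = y * x ∨ x * y = y * x * z
  cen : ∀ x ∈ Q, (∀ y ∈ Q, x * y = y * x) → x = 1 ∨ x = z
  irr : ∀ N : Subgroup Γ, N ≤ Q → (∀ g ∈ C, ∀ n ∈ N, g * n * g⁻¹ ∈ N) → (∀ n ∈ N, n = 1 ∨ n = z) ∨ N = Q
  t1 : τ * z * τ⁻¹ ∈ Q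
  tne : τ * z * τ⁻¹ ≠ z
  t2 : τ⁻¹ * z * τ ∈ Q
  cz : ∀ q ∈ Q, (τ * q * τ⁻¹) * z = z * (τ * q * τ⁻¹) → τ * q * τ⁻¹ ∈ C

variable {C Q : Subgroup Γ} {z τ : Γ}

/-- abelian subgroups of `Q` have order at most `2^12` -/
theorem Dat.abel (D : Dat C Q z τ) {S : Subgroup Γ} (hS : S ≤ Q) (hc : ∀ x ∈ S, ∀ y ∈ S, x * y = y * x) :
    Nat.card S ≤ 2 ^ 12 := by
  have hQ : Finite Q := Nat.finite_of_card_ne_zero (by rw [D.card]; norm_num)
  have h := card_sq_le (Γ := Q) (z := ⟨z, D.zQ⟩) (by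
      intro h
      exact D.z1 (congrArg Subtype.val h)) (Subtype.ext D.zz) (fun x => Subtype.ext (D.zc x.1 (D.QC x.2)))
    (fun x y => (D.comm x.1 x.2 y.1 y.2).imp (fun h => Subtype.ext h) (fun h => Subtype.ext h))
    (fun x hx => (D.cen x.1 x.2 (fun y hy => congrArg Subtype.val (hx ⟨y, hy⟩))).imp (fun h => Subtype.ext h)
      (fun h => Subtype.ext h)) (A := S.subgroupOf Q)
    (fun x hx y hy => Subtype.ext (hc x.1 (mem_subgroupOf.1 hx) y.1 (mem_subgroupOf.1 hy)))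
  rw [D.card, Nat.card_congr (subgroupOfEquivOfLe hS).toEquiv] at h
  by_contra hlt
  push Not at hlt
  have h2 := Nat.pow_lt_pow_left hlt (n := 2) (by norm_num)
  norm_num at h h2
  omega

/-- the part of `Q` commuting with `τ⁻¹ z τ` -/
def R0 (Q : Subgroup Γ) (z τ : Γ) : Subgroup Γ := Q ⊓ centralizer ({τ⁻¹ * z * τ} : Set Γ)

theorem mem_R0 {x : Γ} : x ∈ R0 Q z τ ↔ x ∈ Q ∧ (τ * x * τ⁻¹) * z = z * (τ * x * τ⁻¹) := by
  unfold R0
  rw [mem_inf, mem_centralizer_singleton_iff]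
  refine and_congr_right fun _ => ?_
  constructor
  · intro h
    calc (τ * x * τ⁻¹) * z = τ * (x * (τ⁻¹ * z * τ)) * τ⁻¹ := by group
      _ = τ * ((τ⁻¹ * z * τ) * x) * τ⁻¹ := by rw [h]
      _ = _ := by group
  · intro h
    calc x * (τ⁻¹ * z * τ) = τ⁻¹ * ((τ * x * τ⁻¹) * z) * τ := by group
      _ = τ⁻¹ * (z * (τ * x * τ⁻¹)) * τ := by rw [h]
      _ = _ := by group

theorem Dat.card_R0 (D : Dat C Q z τ) : 2 ^ 22 ≤ Nat.card (R0 Q z τ) := by
  have hQ : Finite Q := Nat.finite_of_card_ne_zero (by rw [D.card]; norm_num)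
  have h2 : (centralizer ({τ⁻¹ * z * τ} : Set Γ)).relIndex Q ∣ 2 := by
    rw [relIndex_dvd_two_iff]
    by_cases h : ∃ a ∈ Q, ¬ a * (τ⁻¹ * z * τ) = (τ⁻¹ * z * τ) * a
    · obtain ⟨a, ha, hna⟩ := h
      refine ⟨a, ha, fun b hb => ?_⟩
      by_cases hb' : b * (τ⁻¹ * z * τ) = (τ⁻¹ * z * τ) * b
      · exact Or.inr (mem_centralizer_singleton_iff.2 hb')
      · left
        rw [mem_centralizer_singleton_iff]
        have e1 := (D.comm a ha _ D.t2).resolve_left hna
        have e2 := (D.comm b hb _ D.t2).resolve_left hb'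
        have e3 := D.zc a (D.QC ha)
        calc b * a * (τ⁻¹ * z * τ) = b * (a * (τ⁻¹ * z * τ)) := by group
          _ = b * ((τ⁻¹ * z * τ) * a * z) := by rw [e1]
          _ = (b * (τ⁻¹ * z * τ)) * (a * z) := by group
          _ = ((τ⁻¹ * z * τ) * b * z) * (a * z) := by rw [e2]
          _ = (τ⁻¹ * z * τ) * b * (z * (a * z)) := by group
          _ = (τ⁻¹ * z * τ) * b * (z * (z * a)) := by rw [e3]
          _ = (τ⁻¹ * z * τ) * b * ((z * z) * a) := by group
          _ = _ := by rw [D.zz]; group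
    · refine ⟨1, Q.one_mem, fun b hb => Or.inr (mem_centralizer_singleton_iff.2 ?_)⟩
      by_contra hb'
      exact h ⟨b, hb, hb'⟩
  have h3 : (R0 Q z τ).relIndex Q = (centralizer ({τ⁻¹ * z * τ} : Set Γ)).relIndex Q := by
    unfold R0
    rw [inf_comm, inf_relIndex_right]
  have h4 : (R0 Q z τ).relIndex Q ≤ 2 := by
    rw [h3]; exact Nat.le_of_dvd (by norm_num) h2
  have h5 : Nat.card (R0 Q z τ) * (R0 Q z τ).relIndex Q = Nat.card Q := by
    have h6 := Subgroup.card_mul_index ((R0 Q z τ).subgroupOf Q)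
    have hle : R0 Q z τ ≤ Q := inf_le_left
    rw [Nat.card_congr (subgroupOfEquivOfLe hle).toEquiv] at h6
    exact h6
  rw [D.card] at h5
  have h6 : Nat.card (R0 Q z τ) * (R0 Q z τ).relIndex Q ≤ Nat.card (R0 Q z τ) * 2 := Nat.mul_le_mul_left _ h4
  rw [h5] at h6
  norm_num at h6 ⊢
  omega

/-- `q` not commuting with `τ z τ⁻¹` -/
theorem Dat.index_ge_aux (D : Dat C Q z τ) {q : Γ} (hq : q ∈ Q) (hne : q * (τ * z * τ⁻¹) ≠ (τ * z * τ⁻¹) * q)
    {H : Subgroup Γ} (hst : ∀ h ∈ H, h * q * h⁻¹ = q ∨ h * q * h⁻¹ = q * z) :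
    1024 ≤ H.relIndex C := by
  have hfin := D.finC
  set R : Subgroup Γ := (R0 Q z τ).map (MulAut.conj τ).toMonoidHom with hR
  have hRC : R ≤ C := by
    rintro _ ⟨x, hx, rfl⟩
    obtain ⟨h1, h2⟩ := mem_R0.1 hx
    exact D.cz x h1 h2
  have hcR : Nat.card R = Nat.card (R0 Q z τ) := by
    rw [hR]
    exact (Nat.card_congr ((R0 Q z τ).equivMapOfInjective _ (MulAut.conj τ).injective).toEquiv).symm
  -- the elements of `R ∩ H` commute
  have hcomm : ∀ x ∈ H ⊓ R, ∀ y ∈ H ⊓ R, x * y = y * x := by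
    rintro _ ⟨hxH, x, hx, rfl⟩ _ ⟨hyH, y, hy, rfl⟩
    change τ * x * τ⁻¹ ∈ H at hxH
    change τ * y * τ⁻¹ ∈ H at hyH
    change (τ * x * τ⁻¹) * (τ * y * τ⁻¹) = (τ * y * τ⁻¹) * (τ * x * τ⁻¹)
    obtain ⟨hxQ, hxz⟩ := mem_R0.1 hx
    obtain ⟨hyQ, hyz⟩ := mem_R0.1 hy
    set e := τ * x * τ⁻¹ with he
    set f := τ * y * τ⁻¹ with hf
    rcases D.comm x hxQ y hyQ with h | h
    · calc e * f = τ * (x * y) * τ⁻¹ := by rw [he, hf]; group
        _ = τ * (y * x) * τ⁻¹ := by rw [h]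
        _ = _ := by rw [he, hf]; group
    · exfalso
      have hef : e * f = f * e * (τ * z * τ⁻¹) := by
        calc e * f = τ * (x * y) * τ⁻¹ := by rw [he, hf]; group
          _ = τ * (y * x * z) * τ⁻¹ := by rw [h]
          _ = _ := by rw [he, hf]; group
      -- `q⁻¹ e q = e` or `e z`
      have conj : ∀ g ∈ H, g * z = z * g → q * g * q⁻¹ = g ∨ q * g * q⁻¹ = g * z := by
        intro g hg hgz
        have hzq := D.zc q (D.QC hq)
        rcases hst g hg with h1 | h1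
        · left
          have h2 : g * q = q * g := by rw [mul_inv_eq_iff_eq_mul] at h1; exact h1
          rw [← h2, mul_inv_cancel_right]
        · right
          have h2 : g * q = q * z * g := by rw [mul_inv_eq_iff_eq_mul] at h1; exact h1
          have h3 : q * g = g * q * z := by
            calc q * g = q * g * (z * z) := by rw [D.zz, mul_one]
              _ = q * (g * z) * z := by group
              _ = q * (z * g) * z := by rw [hgz]
              _ = (q * z * g) * z := by group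
              _ = _ := by rw [← h2]
          rw [h3, mul_assoc g q z, hzq]
          group
      apply hne
      have c1 := conj e hxH hxz
      have c2 := conj f hyH hyz
      have key : ∀ (a b : Γ), (a = e ∨ a = e * z) → (b = f ∨ b = f * z) → a * b = b * a * (τ * z * τ⁻¹) := by
        have hzw : z * (τ * z * τ⁻¹) = (τ * z * τ⁻¹) * z := (D.zc _ (D.QC D.t1)).symm
        intro a b ha hb
        rcases ha with rfl | rfl <;> rcases hb with rfl | rfl
        · exact hef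
        · calc e * (f * z) = (e * f) * z := by group
            _ = f * e * ((τ * z * τ⁻¹) * z) := by rw [hef]; group
            _ = f * (e * z) * (τ * z * τ⁻¹) := by rw [← hzw]; group
            _ = f * (z * e) * (τ * z * τ⁻¹) := by rw [hxz]
            _ = _ := by group
        · calc (e * z) * f = e * (z * f) := by group
            _ = e * (f * z) := by rw [hyz]
            _ = (e * f) * z := by group
            _ = f * e * ((τ * z * τ⁻¹) * z) := by rw [hef]; group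
            _ = f * (e * z) * (τ * z * τ⁻¹) := by rw [← hzw]; group
        · calc (e * z) * (f * z) = e * (z * f) * z := by group
            _ = e * (f * z) * z := by rw [hyz]
            _ = (e * f) * (z * z) := by group
            _ = f * e * (τ * z * τ⁻¹) := by rw [D.zz, hef]; group
            _ = f * (z * z) * e * (τ * z * τ⁻¹) := by rw [D.zz]; group
            _ = f * z * (z * e) * (τ * z * τ⁻¹) := by group
            _ = f * z * (e * z) * (τ * z * τ⁻¹) := by rw [hxz]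
      have h4 := key _ _ c1 c2
      have h5 : q * (e * f) * q⁻¹ = q * (f * e) * q⁻¹ * (τ * z * τ⁻¹) := by
        calc q * (e * f) * q⁻¹ = (q * e * q⁻¹) * (q * f * q⁻¹) := by group
          _ = (q * f * q⁻¹) * (q * e * q⁻¹) * (τ * z * τ⁻¹) := h4
          _ = _ := by group
      have h6 : q * (e * f) * q⁻¹ = q * (f * e) * q⁻¹ * (q * (τ * z * τ⁻¹) * q⁻¹) := by
        rw [hef]; group
      rw [h6] at h5
      have h7 := mul_left_cancel h5
      rw [mul_inv_eq_iff_eq_mul] at h7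
      exact h7
  have hS : Nat.card ↥(H ⊓ R) ≤ 2 ^ 12 := by
    set S : Subgroup Γ := (H ⊓ R).comap (MulAut.conj τ).toMonoidHom with hSdef
    have h1 : S ≤ Q := by
      intro x hx
      obtain ⟨-, y, hy, hxy⟩ := hx
      have : y = x := (MulAut.conj τ).injective hxy
      rw [← this]
      exact (mem_R0.1 hy).1
    have h2 : ∀ x ∈ S, ∀ y ∈ S, x * y = y * x := by
      intro x hx y hy
      have := hcomm _ hx _ hy
      rw [← map_mul, ← map_mul] at this
      exact (MulAut.conj τ).injective this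
    have h3 := D.abel h1 h2
    have h4 : Nat.card ↥(H ⊓ R) = Nat.card S := by
      have h5 : S.map (MulAut.conj τ).toMonoidHom = H ⊓ R := by
        rw [hSdef]
        exact Subgroup.map_comap_eq_self_of_surjective (MulAut.conj τ).surjective _
      rw [← h5]
      exact (Nat.card_congr (S.equivMapOfInjective _ (MulAut.conj τ).injective).toEquiv).symm
    rw [h4]; exact h3
  have hR22 := D.card_R0
  rw [← hcR] at hR22
  have h5 : Nat.card ↥(H ⊓ R) * (H ⊓ R).relIndex R = Nat.card R := by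
    have h6 := Subgroup.card_mul_index ((H ⊓ R).subgroupOf R)
    rw [Nat.card_congr (subgroupOfEquivOfLe (inf_le_right : H ⊓ R ≤ R)).toEquiv] at h6
    exact h6
  rw [inf_relIndex_right] at h5
  have h6 : 1024 ≤ H.relIndex R := by
    by_contra hlt
    push Not at hlt
    have h7 : Nat.card ↥(H ⊓ R) * H.relIndex R ≤ 2 ^ 12 * 1023 := Nat.mul_le_mul hS (by omega)
    rw [h5] at h7
    norm_num at h7 hR22
    omega
  have h7 : H.relIndex C ≠ 0 := by
    unfold Subgroup.relIndex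
    exact Subgroup.index_ne_zero_of_finite
  exact h6.trans (relIndex_le_of_le_right hRC h7)

/-- **every class `qZ ≠ Z` has at least 1024 conjugates** -/
theorem Dat.index_ge (D : Dat C Q z τ) {q : Γ} (hq : q ∈ Q) (h1 : q ≠ 1) (hz : q ≠ z)
    {H : Subgroup Γ} (hst : ∀ h ∈ H, h * q * h⁻¹ = q ∨ h * q * h⁻¹ = q * z) :
    1024 ≤ H.relIndex C := by
  -- a conjugate of `q` does not commute with `τ z τ⁻¹`
  have hex : ∃ c ∈ C, (c * q * c⁻¹) * (τ * z * τ⁻¹) ≠ (τ * z * τ⁻¹) * (c * q * c⁻¹) := by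
    by_contra hno
    push Not at hno
    let N : Subgroup Γ :=
      { carrier := {n | n ∈ Q ∧ ∀ c ∈ C, (c * n * c⁻¹) * (τ * z * τ⁻¹) = (τ * z * τ⁻¹) * (c * n * c⁻¹)}
        one_mem' := ⟨Q.one_mem, fun c _ => by group⟩
        mul_mem' := by
          rintro a b ⟨ha, ha'⟩ ⟨hb, hb'⟩
          refine ⟨Q.mul_mem ha hb, fun c hc => ?_⟩
          have e : c * (a * b) * c⁻¹ = (c * a * c⁻¹) * (c * b * c⁻¹) := by group
          rw [e, mul_assoc, hb' c hc, ← mul_assoc, ha' c hc, mul_assoc]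
        inv_mem' := by
          rintro a ⟨ha, ha'⟩
          refine ⟨Q.inv_mem ha, fun c hc => ?_⟩
          have e : c * a⁻¹ * c⁻¹ = (c * a * c⁻¹)⁻¹ := by group
          rw [e]
          have h : Commute (c * a * c⁻¹) (τ * z * τ⁻¹) := ha' c hc
          exact h.inv_left.eq }
    have hN : N ≤ Q := fun n hn => hn.1
    have hNC : ∀ g ∈ C, ∀ n ∈ N, g * n * g⁻¹ ∈ N := by
      rintro g hg n ⟨hn, hn'⟩
      refine ⟨D.norm g hg n hn, fun c hc => ?_⟩
      have e : c * (g * n * g⁻¹) * c⁻¹ = (c * g) * n * (c * g)⁻¹ := by group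
      rw [e]
      exact hn' (c * g) (C.mul_mem hc hg)
    rcases D.irr N hN hNC with h | h
    · rcases h q ⟨hq, hno⟩ with h2 | h2
      · exact h1 h2
      · exact hz h2
    · have h2 : ∀ y ∈ Q, (τ * z * τ⁻¹) * y = y * (τ * z * τ⁻¹) := by
        intro y hy
        rw [← h] at hy
        have h3 := hy.2 1 C.one_mem
        simpa using h3.symm
      rcases D.cen _ D.t1 h2 with h3 | h3
      · have h4 : τ * z = τ := by rwa [mul_inv_eq_iff_eq_mul, one_mul] at h3
        exact D.z1 (by simpa using h4)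
      · exact D.tne h3
  obtain ⟨c, hc, hne⟩ := hex
  have hst' : ∀ h ∈ H.map (MulAut.conj c).toMonoidHom, h * (c * q * c⁻¹) * h⁻¹ = c * q * c⁻¹ ∨
      h * (c * q * c⁻¹) * h⁻¹ = c * q * c⁻¹ * z := by
    rintro _ ⟨x, hx, rfl⟩
    change (c * x * c⁻¹) * (c * q * c⁻¹) * (c * x * c⁻¹)⁻¹ = c * q * c⁻¹ ∨
      (c * x * c⁻¹) * (c * q * c⁻¹) * (c * x * c⁻¹)⁻¹ = c * q * c⁻¹ * z
    have e : (c * x * c⁻¹) * (c * q * c⁻¹) * (c * x * c⁻¹)⁻¹ = c * (x * q * x⁻¹) * c⁻¹ := by group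
    rw [e]
    rcases hst x hx with h | h
    · left; rw [h]
    · right
      rw [h]
      have e2 := D.zc c⁻¹ (C.inv_mem hc)
      calc c * (q * z) * c⁻¹ = c * q * (z * c⁻¹) := by group
        _ = c * q * (c⁻¹ * z) := by rw [e2]
        _ = _ := by group
  have h2 := D.index_ge_aux (D.norm c hc q hq) hne hst'
  have h3 : (H.map (MulAut.conj c).toMonoidHom).relIndex C = H.relIndex C := by
    have h4 : C.map (MulAut.conj c).toMonoidHom = C := by
      apply le_antisymm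
      · rintro _ ⟨x, hx, rfl⟩
        exact C.mul_mem (C.mul_mem hc hx) (C.inv_mem hc)
      · intro x hx
        exact ⟨c⁻¹ * x * c, C.mul_mem (C.mul_mem (C.inv_mem hc) hx) hc, by
          change c * (c⁻¹ * x * c) * c⁻¹ = x
          group⟩
    conv_lhs => rw [← h4]
    exact relIndex_map_map_of_injective H C (MulAut.conj c).injective
  rwa [h3] at h2

end

/-! ### The model of the Baby Monster -/

open Cfsg.Agent.BabyM.Model

variable {W : Type} [AddCommGroup W] [Module ℚ W] {M : BData W} {K₀ : Type} [Group K₀]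

/-- the data of the model -/
theorem dat (A : BAll M K₀) : Dat M.C M.Q M.z M.τ where
  zQ := A.grp.z_mem
  z1 := A.grp.z_ne
  zz := A.grp.z_sq
  QC := A.grp.Q_le
  finC := by
    have h := A.grp.card_C
    exact Nat.finite_of_card_ne_zero (by rw [h]; norm_num)
  card := A.grp.Q_card
  zc := A.grp.z_comm
  norm := A.grp.Q_normal
  comm := A.grp.Q_comm
  cen := A.grp.Q_center
  irr := A.grp.Q_irred
  t1 := A.orb.τ_z
  tne := A.orb.τ_z_ne
  t2 := by
    obtain ⟨s, hs, hc⟩ := A.orb.τ_inv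
    set c := s * M.τ * s⁻¹ * M.τ with hcdef
    have hz1 := A.grp.z_comm s hs
    have h1 : M.τ⁻¹ * M.z * M.τ = c⁻¹ * (s * (M.τ * M.z * M.τ⁻¹) * s⁻¹) * c := by
      have e1 : s⁻¹ * M.z = M.z * s⁻¹ := by
        rw [inv_mul_eq_iff_eq_mul, ← mul_assoc, hz1, mul_inv_cancel_right]
      have e2 : s * (M.τ * M.z * M.τ⁻¹) * s⁻¹ = (s * M.τ * s⁻¹) * M.z * (s * M.τ * s⁻¹)⁻¹ := by
        calc s * (M.τ * M.z * M.τ⁻¹) * s⁻¹ = s * M.τ * (M.z * s⁻¹) * s * M.τ⁻¹ * s⁻¹ := by group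
          _ = s * M.τ * (s⁻¹ * M.z) * s * M.τ⁻¹ * s⁻¹ := by rw [e1]
          _ = _ := by group
      rw [e2, hcdef]
      group
    rw [h1]
    exact A.grp.Q_normal' c hc _ (A.grp.Q_normal s hs _ A.orb.τ_z)
  cz := by
    intro q hq h
    refine A.cent_z _ ?_ h
    exact M.G.mul_mem (M.G.mul_mem A.τ_mem_G (A.C_le_G (A.grp.Q_le hq))) (M.G.inv_mem A.τ_mem_G)

/-- **`B`: the stabilizer in `C` of a class `qZ ≠ Z` has index at least 1024** -/
theorem index_ge (A : BAll M K₀) {q : W ≃ₗ[ℚ] W} (hq : q ∈ M.Q) (h1 : q ≠ 1) (hz : q ≠ M.z)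
    {H : Subgroup (W ≃ₗ[ℚ] W)}
    (hst : ∀ h ∈ H, h * q * h⁻¹ = q ∨ h * q * h⁻¹ = q * M.z) : 1024 ≤ H.relIndex M.C :=
  (dat A).index_ge hq h1 hz hst

/-- the same with orders -/
theorem card_ge (A : BAll M K₀) {q : W ≃ₗ[ℚ] W} (hq : q ∈ M.Q) (h1 : q ≠ 1) (hz : q ≠ M.z)
    {H : Subgroup (W ≃ₗ[ℚ] W)} (hHC : H ≤ M.C)
    (hst : ∀ h ∈ H, h * q * h⁻¹ = q ∨ h * q * h⁻¹ = q * M.z) : 1024 * Nat.card H ≤ Nat.card M.C := by
  have h2 := index_ge A hq h1 hz hst
  have h3 : Nat.card H * H.relIndex M.C = Nat.card M.C := by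
    have h6 := Subgroup.card_mul_index (H.subgroupOf M.C)
    rw [Nat.card_congr (subgroupOfEquivOfLe hHC).toEquiv] at h6
    exact h6
  rw [← h3, mul_comm]
  exact Nat.mul_le_mul_left _ h2

end Cfsg.Agent.H293.IF
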