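import Mathlib

/-!
# Abelian subgroups of extraspecial-like groups (helper293)

`card_sq_le` : in a finite group with commutators in `{1, z}` and centre `{1, z}`, an abelian subgroup `A` satisfies
`|A|² ≤ 2 |Γ|`.
-/

set_option autoImplicit false

namespace Cfsg.Agent.H293.IF

open Subgroup

variable {Γ : Type*} [Group Γ]

/-- a finite group has at most `|Γ|` linear characters -/
theorem card_hom_le [Finite Γ] : Nat.card (Γ →* ℚ) ≤ Nat.card Γ := by
  classical
  have : Fintype Γ := Fintype.ofFinite Γ
  have h := linearIndependent_monoidHom Γ ℚ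
  have hf : Finite (Γ →* ℚ) := by
    have := h.finite_of_isNoetherian
    exact this
  have : Fintype (Γ →* ℚ) := Fintype.ofFinite _
  have h2 := h.fintype_card_le_finrank
  rw [Module.finrank_fintype_fun_eq_card] at h2
  rwa [Nat.card_eq_fintype_card, Nat.card_eq_fintype_card]

section

variable {z : Γ} (hz1 : z ≠ 1) (hzz : z * z = 1) (hzc : ∀ x : Γ, x * z = z * x)
  (hc : ∀ x y : Γ, x * y = y * x ∨ x * y = y * x * z)

include hz1 in
theorem ne_of_z {x y : Γ} (h : x * y = y * x * z) : x * y ≠ y * x := by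
  intro h2
  rw [h2] at h
  exact hz1 (by simpa using h.symm)

open Classical in
/-- the commutator character of an element -/
noncomputable def chi (_hz1 : z ≠ 1) (hzz : z * z = 1) (hzc : ∀ x : Γ, x * z = z * x)
    (hc : ∀ x y : Γ, x * y = y * x ∨ x * y = y * x * z) (a : Γ) : Γ →* ℚ where
  toFun q := if q * a = a * q then 1 else -1
  map_one' := by rw [one_mul, mul_one, if_pos rfl]
  map_mul' q q' := by
    have key : ∀ u v : Γ, u * a = a * u → v * a = a * v → (u * v) * a = a * (u * v) := by
      intro u v h1 h2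
      rw [mul_assoc, h2, ← mul_assoc, h1, mul_assoc]
    by_cases h1 : q * a = a * q
    · by_cases h2 : q' * a = a * q'
      · rw [if_pos h1, if_pos h2, if_pos (key q q' h1 h2), one_mul]
      · have h3 := (hc q' a).resolve_left h2
        have h4 : ¬ (q * q') * a = a * (q * q') := by
          intro h5
          apply h2
          have h6 : q * (q' * a) = q * (a * q') := by rw [← mul_assoc, h5, ← mul_assoc, ← mul_assoc, h1]
          exact mul_left_cancel h6
        rw [if_pos h1, if_neg h2, if_neg h4, one_mul]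
    · by_cases h2 : q' * a = a * q'
      · have h4 : ¬ (q * q') * a = a * (q * q') := by
          intro h5
          apply h1
          have h6 : (q * a) * q' = (a * q) * q' := by rw [mul_assoc, ← h2, ← mul_assoc, h5, mul_assoc]
          exact mul_right_cancel h6
        rw [if_neg h1, if_pos h2, if_neg h4, mul_one]
      · have h3 := (hc q a).resolve_left h1
        have h4 := (hc q' a).resolve_left h2
        have h5 : (q * q') * a = a * (q * q') := by
          calc (q * q') * a = q * (q' * a) := mul_assoc _ _ _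
            _ = q * (a * q' * z) := by rw [h4]
            _ = (q * a) * (q' * z) := by group
            _ = (a * q * z) * (q' * z) := by rw [h3]
            _ = a * q * (z * q') * z := by group
            _ = a * q * (q' * z) * z := by rw [hzc q']
            _ = a * (q * q') * (z * z) := by group
            _ = a * (q * q') := by rw [hzz, mul_one]
        rw [if_neg h1, if_neg h2, if_pos h5]
        norm_num

theorem chi_apply_one {a q : Γ} (h : q * a = a * q) : chi hz1 hzz hzc hc a q = 1 := if_pos h

theorem comm_of_chi {a q : Γ} (h : chi hz1 hzz hzc hc a q = 1) : q * a = a * q := by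
  classical
  by_contra h1
  have h2 : chi hz1 hzz hzc hc a q = -1 := if_neg h1
  rw [h2] at h
  norm_num at h

include hz1 hzz hzc hc in
/-- the case `z ∈ A` -/
theorem card_sq_le_aux [Finite Γ] (hcen : ∀ x : Γ, (∀ y, x * y = y * x) → x = 1 ∨ x = z) {A : Subgroup Γ}
    (hzA : z ∈ A) (hA : ∀ x ∈ A, ∀ y ∈ A, x * y = y * x) : Nat.card A ^ 2 ≤ 2 * Nat.card Γ := by
  classical
  have hN : A.Normal := by
    refine ⟨fun a ha g => ?_⟩
    rcases hc g a with h | h
    · rw [h, mul_inv_cancel_right]; exact ha
    · have e : g * a * g⁻¹ = a * (g * z * g⁻¹) := by rw [h]; group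
      rw [e, hzc g, mul_inv_cancel_right]
      exact A.mul_mem ha hzA
  have key : ∀ a ∈ A, ∀ q ∈ A, chi hz1 hzz hzc hc a q = 1 := fun a ha q hq =>
    chi_apply_one hz1 hzz hzc hc (hA q hq a ha)
  let f : A → (Γ ⧸ A →* ℚ) := fun a => QuotientGroup.lift A (chi hz1 hzz hzc hc a.1) (key a.1 a.2)
  -- the fibres have at most two elements
  have hfib : ∀ a b : A, f a = f b → (b : Γ) = a ∨ (b : Γ) = a * z := by
    intro a b h
    have h1 : ∀ q : Γ, chi hz1 hzz hzc hc a.1 q = chi hz1 hzz hzc hc b.1 q := by
      intro q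
      have := DFunLike.congr_fun h (q : Γ ⧸ A)
      exact this
    have h2 : ∀ q : Γ, (a.1⁻¹ * b.1) * q = q * (a.1⁻¹ * b.1) := by
      intro q
      by_cases hq : q * a.1 = a.1 * q
      · have hb := comm_of_chi hz1 hzz hzc hc ((h1 q).symm.trans (chi_apply_one hz1 hzz hzc hc hq))
        have h3 : a.1⁻¹ * q = q * a.1⁻¹ := by
          rw [inv_mul_eq_iff_eq_mul, ← mul_assoc, ← hq, mul_inv_cancel_right]
        rw [mul_assoc, ← hb, ← mul_assoc, h3, mul_assoc]
      · have hq' : ¬ q * b.1 = b.1 * q := by
          intro hb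
          exact hq (comm_of_chi hz1 hzz hzc hc ((h1 q).trans (chi_apply_one hz1 hzz hzc hc hb)))
        have h3 := (hc q a.1).resolve_left hq
        have h4 := (hc q b.1).resolve_left hq'
        have h5 : a.1⁻¹ * q = q * a.1⁻¹ * z := by
          rw [inv_mul_eq_iff_eq_mul]
          calc q = q * (a.1 * a.1⁻¹) * (z * z) := by rw [hzz]; group
            _ = (q * a.1) * a.1⁻¹ * z * z := by group
            _ = (a.1 * q * z) * a.1⁻¹ * z * z := by rw [h3]
            _ = a.1 * q * (z * a.1⁻¹) * (z * z) := by group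
            _ = a.1 * q * (a.1⁻¹ * z) := by rw [hzz, ← hzc a.1⁻¹, mul_one]
            _ = _ := by group
        have h6 : b.1 * q = q * b.1 * z := by
          rw [h4, mul_assoc (b.1 * q), hzz, mul_one]
        calc (a.1⁻¹ * b.1) * q = a.1⁻¹ * (b.1 * q) := by group
          _ = (a.1⁻¹ * q) * (b.1 * z) := by rw [h6]; group
          _ = q * a.1⁻¹ * (z * b.1) * z := by rw [h5]; group
          _ = q * a.1⁻¹ * b.1 * (z * z) := by rw [← hzc b.1]; group
          _ = _ := by rw [hzz]; group
    rcases hcen _ h2 with h3 | h3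
    · left
      exact (inv_mul_eq_one.1 h3).symm
    · right
      rw [← h3]; group
  have h1 : Nat.card A ≤ 2 * Nat.card (Γ ⧸ A →* ℚ) := by
    have hfinH : Finite (Γ ⧸ A →* ℚ) := (linearIndependent_monoidHom (Γ ⧸ A) ℚ).finite_of_isNoetherian
    have : Fintype A := Fintype.ofFinite A
    have : Fintype (Γ ⧸ A →* ℚ) := Fintype.ofFinite _
    rw [Nat.card_eq_fintype_card, Nat.card_eq_fintype_card, ← Finset.card_univ (α := A), ← Finset.card_univ (α := Γ ⧸ A →* ℚ)]
    refine Finset.card_le_mul_card_image_of_maps_to (f := f) (fun a _ => Finset.mem_univ _) 2 ?_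
    intro g _
    by_cases hg : ∃ a : A, f a = g
    · obtain ⟨a, ha⟩ := hg
      have hsub : (Finset.univ.filter fun x : A => f x = g) ⊆ {a, ⟨a.1 * z, A.mul_mem a.2 hzA⟩} := by
        intro b hb
        rw [Finset.mem_filter] at hb
        rw [Finset.mem_insert, Finset.mem_singleton]
        rcases hfib a b (ha.trans hb.2.symm) with h | h
        · exact Or.inl (Subtype.ext h)
        · exact Or.inr (Subtype.ext h)
      exact (Finset.card_le_card hsub).trans Finset.card_le_two
    · have : (Finset.univ.filter fun x : A => f x = g) = ∅ := by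
        rw [Finset.filter_eq_empty_iff]
        intro x _ hx
        exact hg ⟨x, hx⟩
      rw [this]; simp
  have h2 : Nat.card A ≤ 2 * Nat.card (Γ ⧸ A) := h1.trans (Nat.mul_le_mul_left 2 card_hom_le)
  have h3 := Subgroup.card_eq_card_quotient_mul_card_subgroup A
  rw [h3, pow_two, ← mul_assoc]
  exact Nat.mul_le_mul_right _ h2

include hz1 hzz hzc hc in
/-- **abelian subgroups are small** -/
theorem card_sq_le [Finite Γ] (hcen : ∀ x : Γ, (∀ y, x * y = y * x) → x = 1 ∨ x = z) {A : Subgroup Γ}
    (hA : ∀ x ∈ A, ∀ y ∈ A, x * y = y * x) : Nat.card A ^ 2 ≤ 2 * Nat.card Γ := by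
  have h1 : z ∈ A ⊔ zpowers z := (le_sup_right : zpowers z ≤ A ⊔ zpowers z) (mem_zpowers z)
  have hZ : (zpowers z).Normal := by
    refine ⟨fun a ha g => ?_⟩
    obtain ⟨k, rfl⟩ := ha
    have e : Commute g (z ^ k) := (show Commute g z from hzc g).zpow_right k
    rw [e.eq, mul_inv_cancel_right]
    exact ⟨k, rfl⟩
  have h2 : ∀ x ∈ A ⊔ zpowers z, ∀ y ∈ A ⊔ zpowers z, x * y = y * x := by
    intro x hx y hy
    obtain ⟨a, ha, u, hu, rfl⟩ := Subgroup.mem_sup_of_normal_right.1 hx
    obtain ⟨b, hb, v, hv, rfl⟩ := Subgroup.mem_sup_of_normal_right.1 hy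
    obtain ⟨k, rfl⟩ := hu
    obtain ⟨l, rfl⟩ := hv
    have cz : ∀ (g : Γ) (m : ℤ), Commute g (z ^ m) := fun g m => (show Commute g z from hzc g).zpow_right m
    have e1 : Commute (a * z ^ k) (b * z ^ l) :=
      Commute.mul_right (Commute.mul_left (hA a ha b hb) (cz b k).symm) (cz _ l)
    exact e1.eq
  have h3 := card_sq_le_aux hz1 hzz hzc hc hcen h1 h2
  have h4 : Nat.card A ≤ Nat.card ↥(A ⊔ zpowers z) := Subgroup.card_le_of_le le_sup_left
  exact (Nat.pow_le_pow_left h4 2).trans h3

end

end Cfsg.Agent.H293.IF
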